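import Groth.Agent.Ega2.H303.SubIso
import Groth.Agent.Ega2.H292.NormData

/-!
# Norm data with values in a system of subrings
-/

set_option autoImplicit false
set_option linter.dupNamespace false
universe u

open CategoryTheory CategoryTheory.Limits AlgebraicGeometry Opposite TopologicalSpace

namespace Groth.Agent.Ega2.H303.SubNorm

open AlgebraicGeometry.Scheme.AffineZariskiSite AlgebraicGeometry.Scheme
open Groth.Agent.Ega2.H303.SubModel Groth.Agent.Fdesc.LocGen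

/-- If `b` is in all the primes over `p` then `u b^k ∈ pB` for some `u ∉ p`. -/
theorem exists_mul_pow_mem {R B : Type*} [CommRing R] [CommRing B] (φ : R →+* B) (p : Ideal R) [p.IsPrime] (b : B)
    (hb : ∀ P : Ideal B, P.IsPrime → P.comap φ = p → b ∈ P) :
    ∃ (u : R) (k : ℕ), u ∉ p ∧ φ u * b ^ k ∈ p.map φ := by
  by_contra hcon
  push Not at hcon
  let T : Submonoid B := (p.primeCompl.map φ) ⊔ Submonoid.powers b
  have hT : Disjoint ((p.map φ : Ideal B) : Set B) T := by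
    rw [Set.disjoint_left]
    intro x hx hxT
    obtain ⟨y, hy, z, hz, rfl⟩ := Submonoid.mem_sup.1 hxT
    obtain ⟨u, hu, rfl⟩ := hy
    obtain ⟨k, rfl⟩ := hz
    exact hcon u k hu hx
  obtain ⟨P, hP, hpP, hPT⟩ := Ideal.exists_le_prime_disjoint _ T hT
  have h1 : P.comap φ = p := by
    apply le_antisymm
    · intro a ha
      by_contra hap
      exact Set.disjoint_left.1 hPT ha (Submonoid.mem_sup_left ⟨a, hap, rfl⟩)
    · exact Ideal.map_le_iff_le_comap.1 hpP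
  exact Set.disjoint_left.1 hPT (hb P hP h1) (Submonoid.mem_sup_right (Submonoid.mem_powers b))

/-- The ideal of the functions vanishing at a point. -/
noncomputable def pt {X : Scheme.{u}} {U : X.Opens} (x : X) (hx : x ∈ U) : Ideal Γ(X, U) :=
  RingHom.ker (X.evaluation U x hx).hom

theorem mem_pt {X : Scheme.{u}} {U : X.Opens} (x : X) (hx : x ∈ U) (a : Γ(X, U)) :
    a ∈ pt x hx ↔ x ∉ X.basicOpen a := X.evaluation_eq_zero_iff_notMem_basicOpen x hx a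

instance {X : Scheme.{u}} {U : X.Opens} (x : X) (hx : x ∈ U) : (pt (U := U) x hx).IsPrime :=
  RingHom.ker_isPrime _

theorem eq_of_basicOpen {X : Scheme.{u}} {U : X.Opens} (hU : IsAffineOpen U) {x y : X} (hx : x ∈ U) (hy : y ∈ U)
    (h : ∀ a : Γ(X, U), x ∈ X.basicOpen a ↔ y ∈ X.basicOpen a) : x = y := by
  have hx' : x ∈ Set.range hU.fromSpec := by rwa [hU.range_fromSpec]
  have hy' : y ∈ Set.range hU.fromSpec := by rwa [hU.range_fromSpec]
  obtain ⟨p, rfl⟩ := hx'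
  obtain ⟨q, rfl⟩ := hy'
  congr 1
  apply PrimeSpectrum.ext
  ext a
  have h1 : p ∈ hU.fromSpec ⁻¹ᵁ X.basicOpen a ↔ q ∈ hU.fromSpec ⁻¹ᵁ X.basicOpen a := h a
  rw [hU.fromSpec_preimage_basicOpen] at h1
  exact not_iff_not.1 h1

theorem exists_pt_eq {X : Scheme.{u}} {U : X.Opens} (hU : IsAffineOpen U) (P : Ideal Γ(X, U)) [hP : P.IsPrime] :
    ∃ (x : X) (hx : x ∈ U), pt x hx = P := by
  let p : PrimeSpectrum Γ(X, U) := ⟨P, hP⟩
  have hx : hU.fromSpec p ∈ U := by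
    have : hU.fromSpec p ∈ Set.range hU.fromSpec := ⟨p, rfl⟩
    rw [hU.range_fromSpec] at this
    exact this
  refine ⟨hU.fromSpec p, hx, ?_⟩
  ext a
  rw [mem_pt]
  have h1 : hU.fromSpec p ∈ X.basicOpen a ↔ p ∈ hU.fromSpec ⁻¹ᵁ X.basicOpen a := Iff.rfl
  rw [h1, hU.fromSpec_preimage_basicOpen]
  change ¬ ¬ (a ∈ P) ↔ a ∈ P
  exact not_not

theorem pt_comap {X Y : Scheme.{u}} (f : X ⟶ Y) {U : Y.Opens} (x : X) (hx : f x ∈ U) :
    (pt (U := f ⁻¹ᵁ U) x hx).comap (f.app U).hom = pt (f x) hx := by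
  ext a
  change f.app U a ∈ pt (U := f ⁻¹ᵁ U) x hx ↔ _
  rw [mem_pt, mem_pt, ← Scheme.preimage_basicOpen]
  rfl

/-- If `b` vanishes at all the points over `x`, then `u b^k` is in the extension of the ideal of `x`. -/
theorem exists_mul_pow_mem_scheme {X₁ X : Scheme.{u}} (g : X₁ ⟶ X) [IsAffineHom g] {U : X.Opens}
    (hU : IsAffineOpen U) (x : X) (hx : x ∈ U) (b : Γ(X₁, g ⁻¹ᵁ U)) (hb : ∀ x₁ : X₁, g x₁ = x → x₁ ∉ X₁.basicOpen b) :
    ∃ (a : Γ(X, U)) (k : ℕ), a ∉ pt x hx ∧ (g.app U a : Γ(X₁, g ⁻¹ᵁ U)) * b ^ k ∈ (pt x hx).map (g.app U).hom := by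
  refine exists_mul_pow_mem (g.app U).hom (pt x hx) b ?_
  intro P hP hPx
  obtain ⟨x₁, hx₁, rfl⟩ := exists_pt_eq (hU.preimage g) P
  rw [mem_pt]
  apply hb
  have h1 := pt_comap g x₁ hx₁
  rw [hPx] at h1
  refine eq_of_basicOpen hU hx₁ hx fun a => ?_
  rw [← not_iff_not, ← mem_pt (g x₁) hx₁ a, ← mem_pt x hx a, h1]

variable {X : Scheme.{u}} (S : Sys X)

/-- A family of multiplicative maps with values in a system of subrings. -/
structure NormFam {X₁ : Scheme.{u}} (g : X₁ ⟶ X) (n : ℕ) where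
  /-- the norm -/
  N : ∀ U : X.AffineZariskiSite, Γ(X₁, g ⁻¹ᵁ U.toOpens) →* S.C U
  N_res : ∀ (U : X.AffineZariskiSite) (f : Γ(X, U.toOpens)) (b : Γ(X₁, g ⁻¹ᵁ U.toOpens)),
    N (U.basicOpen f) (ores (g.preimage_mono (X.basicOpen_le f)) b) = S.res (U.basicOpen_le f) (N U b)
  N_app : ∀ (U : X.AffineZariskiSite) (a : Γ(X, U.toOpens)), N U (g.app U.toOpens a) = S.ev U a ^ n
  N_mem : ∀ (U : X.AffineZariskiSite) (I : Ideal Γ(X, U.toOpens)) (b : Γ(X₁, g ⁻¹ᵁ U.toOpens)),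
    b ∈ I.map (g.app U.toOpens).hom → N U b ∈ I.map (S.ev U)

namespace NormFam

variable {S} {X₁ : Scheme.{u}} {g : X₁ ⟶ X} {n : ℕ} (D : NormFam S g n)

theorem N_res' {U V : X.AffineZariskiSite} (i : V ≤ U) (b : Γ(X₁, g ⁻¹ᵁ U.toOpens)) :
    D.N V (ores (g.preimage_mono (toOpens_mono i)) b) = S.res i (D.N U b) := by
  obtain ⟨f, hf⟩ := i
  obtain rfl : U.basicOpen f = V := Subtype.ext hf
  exact D.N_res U f b

/-- The norm with values in the functions on the relative spectrum. -/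
noncomputable def Nm (U : X.AffineZariskiSite) : Γ(X₁, g ⁻¹ᵁ U.toOpens) →* Γ(S.obj, S.hom ⁻¹ᵁ U.toOpens) :=
  ((S.secEquiv U).symm : S.C U →* Γ(S.obj, S.hom ⁻¹ᵁ U.toOpens)).comp (D.N U)

theorem secEquiv_Nm (U : X.AffineZariskiSite) (b : Γ(X₁, g ⁻¹ᵁ U.toOpens)) :
    S.secEquiv U (D.Nm U b) = D.N U b := (S.secEquiv U).apply_symm_apply _

theorem Nm_res {U V : X.AffineZariskiSite} (i : V ≤ U) (b : Γ(X₁, g ⁻¹ᵁ U.toOpens)) :
    D.Nm V (ores (g.preimage_mono (toOpens_mono i)) b) = ores (S.hom.preimage_mono (toOpens_mono i)) (D.Nm U b) := by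
  apply (S.secEquiv V).injective
  rw [secEquiv_Nm, N_res', ← secEquiv_Nm]
  exact (S.secEquiv_res i _).symm

theorem Nm_app (U : X.AffineZariskiSite) (a : Γ(X, U.toOpens)) :
    D.Nm U (g.app U.toOpens a) = (S.hom.app U.toOpens a : Γ(S.obj, S.hom ⁻¹ᵁ U.toOpens)) ^ n := by
  apply (S.secEquiv U).injective
  rw [secEquiv_Nm, N_app, map_pow, S.secEquiv_app]

theorem Nm_mem (U : X.AffineZariskiSite) (I : Ideal Γ(X, U.toOpens)) (b : Γ(X₁, g ⁻¹ᵁ U.toOpens))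
    (hb : b ∈ I.map (g.app U.toOpens).hom) : D.Nm U b ∈ I.map (S.hom.app U.toOpens).hom := by
  have h1 := D.N_mem U I b hb
  have h2 : (I.map (S.hom.app U.toOpens).hom).map (S.secEquiv U : Γ(S.obj, S.hom ⁻¹ᵁ U.toOpens) →+* S.C U) =
      I.map (S.ev U) := by
    rw [Ideal.map_map]
    congr 1
    ext1 a
    exact S.secEquiv_app U a
  rw [← h2, ← secEquiv_Nm] at h1
  have h3 := Ideal.mem_map_of_mem ((S.secEquiv U).symm : S.C U →+* Γ(S.obj, S.hom ⁻¹ᵁ U.toOpens)) h1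
  rw [Ideal.map_map] at h3
  have h4 : ((S.secEquiv U).symm : S.C U →+* Γ(S.obj, S.hom ⁻¹ᵁ U.toOpens)).comp
      (S.secEquiv U : Γ(S.obj, S.hom ⁻¹ᵁ U.toOpens) →+* S.C U) = RingHom.id _ :=
    (S.secEquiv U).symm_comp
  rw [h4, Ideal.map_id] at h3
  have h5 : (S.secEquiv U).symm (S.secEquiv U (D.Nm U b)) ∈ _ := h3
  rwa [RingEquiv.symm_apply_apply] at h5

theorem exists_mem [IsAffineHom g] (U : X.AffineZariskiSite) (b : Γ(X₁, g ⁻¹ᵁ U.toOpens)) (z : S.obj)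
    (hz : S.hom z ∈ U.toOpens) (hzb : z ∈ S.obj.basicOpen (D.Nm U b)) :
    ∃ x₁ : X₁, g x₁ = S.hom z ∧ x₁ ∈ X₁.basicOpen b := by
  by_contra hcon
  push Not at hcon
  obtain ⟨a, k, ha, hk⟩ := exists_mul_pow_mem_scheme g U.2 (S.hom z) hz b hcon
  have h1 := D.Nm_mem U _ _ hk
  rw [map_mul, map_pow, D.Nm_app] at h1
  have hle : (pt (S.hom z) hz).map (S.hom.app U.toOpens).hom ≤ pt (U := S.hom ⁻¹ᵁ U.toOpens) z hz := by
    rw [Ideal.map_le_iff_le_comap, pt_comap]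
  have h2 := hle h1
  rcases Ideal.IsPrime.mem_or_mem inferInstance h2 with h3 | h3
  · have h4 := Ideal.IsPrime.mem_of_pow_mem inferInstance _ h3
    exact ha (by rw [← pt_comap]; exact h4)
  · have h4 := Ideal.IsPrime.mem_of_pow_mem inferInstance _ h3
    exact (mem_pt _ _ _).1 h4 hzb

/-- Compatibility with restriction to an arbitrary smaller affine open. -/
theorem Nm_ores {U V : X.AffineZariskiSite} (i : V.toOpens ≤ U.toOpens) (b : Γ(X₁, g ⁻¹ᵁ U.toOpens)) :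
    D.Nm V (ores (g.preimage_mono i) b) = ores (S.hom.preimage_mono i) (D.Nm U b) := by
  let κ : Type u := {W : X.AffineZariskiSite // W ≤ V ∧ W ≤ U}
  refine ores_ext (ι := κ) (fun W => S.hom ⁻¹ᵁ W.1.toOpens) (fun W => S.hom.preimage_mono (toOpens_mono W.2.1)) ?_ ?_
  · intro z hz
    obtain ⟨f, f', hff', hzf⟩ := exists_basicOpen_le_affine_inter V.2 U.2 (S.hom z) ⟨hz, i hz⟩
    exact Opens.mem_iSup.2 ⟨⟨V.basicOpen f, ⟨f, rfl⟩, ⟨f', hff'.symm⟩⟩, hzf⟩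
  · rintro ⟨W, hWV, hWU⟩
    rw [← D.Nm_res hWV, ores_ores, ores_ores, D.Nm_res hWU]

/-- The norm datum attached to a norm family. -/
noncomputable def toNormData [IsAffineHom g] : H292.NormData.NormData g S.hom n where
  P V := IsAffineOpen V
  isAffineOpen h := h
  basis U x hx := by
    obtain ⟨V, hV, hxV, hVU⟩ := exists_isAffineOpen_mem_and_subset (x := x) (U := U) hx
    exact ⟨V, hxV, hVU, hV⟩
  N V hV := D.Nm ⟨V, hV⟩
  N_res {V V'} hV hV' i b := D.Nm_ores (U := ⟨V, hV⟩) (V := ⟨V', hV'⟩) i b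
  N_app {V} hV a := D.Nm_app ⟨V, hV⟩ a
  exists_mem {V} hV b z hz hzb := D.exists_mem ⟨V, hV⟩ b z hz hzb

end NormFam

end Groth.Agent.Ega2.H303.SubNorm
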