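import Groth.Agent.Ega2.H303.FibAlg
import Groth.Agent.Ega2.H303.SubNorm
import Groth.Agent.Ega2.H284.NormLawLoc

/-!
# The norm law of a finite morphism

`g : X₁ ⟶ X` finite, `n` a common multiple of the degrees of the fibres at the maximal points of `X`.
`repU g h U : Γ(X₁, g⁻¹U) →ₐ Matrix (Fin n) (Fin n) (K X U)`, the system `sys g h` of the algebras generated by the
coefficients of the generic norms, and the norm family `fam`.
-/

set_option autoImplicit false
set_option linter.dupNamespace false
universe u

open CategoryTheory CategoryTheory.Limits AlgebraicGeometry Opposite TopologicalSpace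

namespace Groth.Agent.Ega2.H303.FibRep

open AlgebraicGeometry.Scheme.AffineZariskiSite AlgebraicGeometry.Scheme
open Groth.Agent.Ega2.H303.SubModel Groth.Agent.Ega2.H303.SubNorm Groth.Agent.Ega2.H303.FibAlg
open Groth.Agent.Ega2.H284.NormLaw Groth.Agent.Ega2.H284.NormLawLoc Groth.Agent.Fdesc.LocGen

variable {X₁ X : Scheme.{u}} (g : X₁ ⟶ X)

/-- The structure map of the ring of functions on the fibre. -/
noncomputable def κL' (x : X) : X.residueField x →+* Γ(g.fiber x, ⊤) := (κL g x).hom

/-- The ring of functions on the fibre as an algebra. -/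
@[reducible] noncomputable def algL (x : X) : Algebra (X.residueField x) Γ(g.fiber x, ⊤) := (κL' g x).toAlgebra

attribute [local instance] algL

/-- The degree of the fibre. -/
noncomputable def deg (x : X) : ℕ := Module.finrank (X.residueField x) Γ(g.fiber x, ⊤)

theorem finite_L [IsFinite g] (x : X) : Module.Finite (X.residueField x) Γ(g.fiber x, ⊤) := finite_κL g x

theorem deg_pos [IsFinite g] [Surjective g] (x : X) : 0 < deg g x := by
  have := finite_L g x
  have := nontrivial_L g x
  exact Module.finrank_pos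

/-- A basis of the ring of functions on the fibre. -/
noncomputable def basis [IsFinite g] (x : X) : Module.Basis (Fin (deg g x)) (X.residueField x) Γ(g.fiber x, ⊤) :=
  letI := finite_L g x
  Module.finBasis _ _

/-- `n` is a common multiple of the degrees of the fibres at the maximal points. -/
def Unif (n : ℕ) : Prop := ∀ η ∈ genericPoints X, deg g η ∣ n

theorem exists_unif [IsFinite g] [Surjective g] [IsNoetherian X] : ∃ n : ℕ, 0 < n ∧ Unif g n := by
  have h1 : (genericPoints X).Finite := genericPoints.finite TopologicalSpace.NoetherianSpace.finite_irreducibleComponents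
  refine ⟨∏ η ∈ h1.toFinset, deg g η, Finset.prod_pos fun η _ => deg_pos g η, fun η hη => ?_⟩
  exact Finset.dvd_prod_of_mem _ (h1.mem_toFinset.2 hη)

/-- `Γ(X₁, g⁻¹U)` as an algebra. -/
@[reducible] noncomputable def algB (U : X.Opens) : Algebra Γ(X, U) Γ(X₁, g ⁻¹ᵁ U) := (g.app U).hom.toAlgebra

/-- The residue fields as algebras. -/
@[reducible] noncomputable def algκ (U : X.Opens) (η : MaxPt X U) : Algebra Γ(X, U) (X.residueField η.1) :=
  RingHom.toAlgebra (show Γ(X, U) →+* X.residueField η.1 from (X.evaluation U η.1 η.2.2).hom)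

attribute [local instance] algB algκ

theorem algebraMap_K (U : X.Opens) (a : Γ(X, U)) : algebraMap Γ(X, U) (K X U) a = evK U a := rfl

variable {g} {n : ℕ} [IsFinite g] (h : Unif g n)

/-- The regular representation at a maximal point. -/
noncomputable def repη (U : X.Opens) (η : MaxPt X U) :
    Γ(X₁, g ⁻¹ᵁ U) →ₐ[Γ(X, U)] Matrix (Fin n) (Fin n) (X.residueField η.1) where
  toRingHom := (rep (basis g η.1) (Nat.mul_div_cancel' (h η.1 η.2.1))).toRingHom.comp (toL g η.1 η.2.2).hom
  commutes' r := by
    change rep (basis g η.1) (Nat.mul_div_cancel' (h η.1 η.2.1)) (toL g η.1 η.2.2 (g.app U r)) = _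
    rw [toL_app]
    exact (rep (basis g η.1) (Nat.mul_div_cancel' (h η.1 η.2.1))).commutes _

theorem repη_apply (U : X.Opens) (η : MaxPt X U) (b : Γ(X₁, g ⁻¹ᵁ U)) :
    repη h U η b = rep (basis g η.1) (Nat.mul_div_cancel' (h η.1 η.2.1)) (toL g η.1 η.2.2 b) := rfl

theorem repη_res {U V : X.Opens} (i : V ≤ U) (η : MaxPt X V) (b : Γ(X₁, g ⁻¹ᵁ U)) :
    repη h V η (ores (g.preimage_mono i) b) = repη h U (η.incl i) b := by
  rw [repη_apply, toL_res g η.1 i η.2.2]
  rfl

/-- The product of the regular representations. -/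
noncomputable def repU (U : X.Opens) : Γ(X₁, g ⁻¹ᵁ U) →ₐ[Γ(X, U)] Matrix (Fin n) (Fin n) (K X U) :=
  piRep (repη h U)

theorem repU_res {U V : X.Opens} (i : V ≤ U) (b : Γ(X₁, g ⁻¹ᵁ U)) :
    repU h V (ores (g.preimage_mono i) b) = (repU h U b).map (resK i) := by
  ext p q η
  change repη h V η (ores (g.preimage_mono i) b) p q = repη h U (η.incl i) b p q
  rw [repη_res]

/-- Fractions on basic opens. -/
theorem exists_frac {Y : Scheme.{u}} {U : Y.Opens} (hU : IsAffineOpen U) (f : Γ(Y, U)) (a : Γ(Y, Y.basicOpen f)) :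
    ∃ (k : ℕ) (b : Γ(Y, U)), ores (Y.basicOpen_le f) f ^ k * a = ores (Y.basicOpen_le f) b := by
  have h1 := hU.isLocalization_basicOpen f
  obtain ⟨k, b, hb⟩ := IsLocalization.Away.surj (S := Γ(Y, Y.basicOpen f)) f a
  exact ⟨k, b, by rw [mul_comm]; exact hb⟩

/-- Fractions on the preimages of basic opens. -/
theorem exists_frac_preimage {U : X.Opens} (hU : IsAffineOpen U) (f : Γ(X, U)) (b : Γ(X₁, g ⁻¹ᵁ (X.basicOpen f))) :
    ∃ (k : ℕ) (c : Γ(X₁, g ⁻¹ᵁ U)), g.app _ (ores (X.basicOpen_le f) f) ^ k * b =
      ores (g.preimage_mono (X.basicOpen_le f)) c := by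
  have h0 : g ⁻¹ᵁ (X.basicOpen f) = X₁.basicOpen (g.app U f) := Scheme.preimage_basicOpen g f
  obtain ⟨k, c, hc⟩ := exists_frac (hU.preimage g) (g.app U f) (ores h0.ge b)
  refine ⟨k, c, ?_⟩
  have h1 := congrArg (ores h0.le) hc
  rw [map_mul, map_pow, ores_ores, ores_ores, ores_ores, ores_refl] at h1
  rw [← h1]
  congr 2
  exact congr($(g.naturality (homOfLE (X.basicOpen_le f)).op) f)

/-- The system of the algebras generated by the coefficients of the generic norms. -/
noncomputable def sys : Sys X where
  C U := (alg (repU h U.toOpens)).toSubring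
  ev_mem U a := (alg (repU h U.toOpens)).algebraMap_mem a
  res_mem U f c hc := map_mem_alg (repU h U.toOpens) (repU h (X.basicOpen f)) (ores (X.basicOpen_le f))
    (ores (g.preimage_mono (X.basicOpen_le f))) (resK (X.basicOpen_le f)) (fun a => resK_evK _ a)
    (fun b => repU_res h _ b) hc
  frac U f c hc := by
    obtain ⟨k, y, hy, hk⟩ := exists_of_mem_alg (repU h U.toOpens) (repU h (X.basicOpen f)) (ores (X.basicOpen_le f))
      (ores (g.preimage_mono (X.basicOpen_le f))) (resK (X.basicOpen_le f)) f (fun a => resK_evK _ a)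
      (fun b => repU_res h _ b) (fun a => exists_frac U.2 f a)
      (fun b => by
        obtain ⟨k, c, hc⟩ := exists_frac_preimage (g := g) U.2 f b
        refine ⟨k, c, ?_⟩
        rw [Algebra.smul_def, map_pow]
        exact hc)
      (fun a => (congr($(g.naturality (homOfLE (X.basicOpen_le f)).op) a)).symm) hc
    refine ⟨k, y, hy, ?_⟩
    rw [hk, Algebra.smul_def, map_pow, resK_evK]
    rfl

/-- The algebra of coefficients as a subring. -/
theorem mem_sys (U : X.AffineZariskiSite) (c : K X U.toOpens) : c ∈ (sys h).C U ↔ c ∈ alg (repU h U.toOpens) := Iff.rfl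

theorem finite_ev (U : X.AffineZariskiSite) : ((sys h).ev U).Finite := by
  have h1 : Module.Finite Γ(X, U.toOpens) Γ(X₁, g ⁻¹ᵁ U.toOpens) := IsFinite.finite_app g U.toOpens U.2
  exact (finite_alg (repU h U.toOpens) : Module.Finite Γ(X, U.toOpens) (alg (repU h U.toOpens)))

instance : IsFinite (sys h).hom := (sys h).isFinite_hom (finite_ev h)

/-- The norm family. -/
noncomputable def fam (hn : 0 < n) : NormFam (sys h) g n where
  N U := { toFun := fun b => ⟨(repU h U.toOpens b).det, det_mem_alg (repU h U.toOpens) b⟩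
           map_one' := Subtype.ext (by simp)
           map_mul' := fun x y => Subtype.ext (by simp [Matrix.det_mul]) }
  N_res U f b := Subtype.ext (by
    change (repU h (X.basicOpen f) (ores (g.preimage_mono (X.basicOpen_le f)) b)).det =
      resK (X.basicOpen_le f) (repU h U.toOpens b).det
    rw [repU_res, RingHom.map_det]
    rfl)
  N_app U a := Subtype.ext (congrArg Subtype.val (norm_algebraMap (repU h U.toOpens) a))
  N_mem U I b hb := norm_mem_map (repU h U.toOpens) hn I hb

end Groth.Agent.Ega2.H303.FibRep
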