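import Groth.Agent.Ega2.H303.LocSurj
import Groth.Agent.Ega2.H303.FibRep
import Mathlib.AlgebraicGeometry.Noetherian

/-!
# The local rings at the maximal points of a reduced scheme are normal
-/

set_option autoImplicit false
set_option linter.dupNamespace false
universe u

open CategoryTheory CategoryTheory.Limits AlgebraicGeometry Opposite TopologicalSpace

namespace Groth.Agent.Ega2.H303.Assembly

open AlgebraicGeometry.Scheme.AffineZariskiSite AlgebraicGeometry.Scheme
open Groth.Agent.Ega2.H303.SubModel Groth.Agent.Ega2.H303.SubNorm Groth.Agent.Fdesc.LocGen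

theorem isIntegrallyClosed_of_isField {R : Type*} [CommRing R] (h : IsField R) :
    IsDomain R ∧ IsIntegrallyClosed R := by
  have h1 := h.isDomain
  refine ⟨h1, ?_⟩
  have : @IsIntegrallyClosed R (h.toField.toCommRing) := by
    let := h.toField
    infer_instance
  exact this

theorem normal_of_maxPt {X : Scheme.{u}} [IsReduced X] {η : X} (hη : η ∈ genericPoints X) :
    IsDomain (X.presheaf.stalk η) ∧ IsIntegrallyClosed (X.presheaf.stalk η) :=
  isIntegrallyClosed_of_isField (isField_stalk_of_closure_mem_irreducibleComponents X η hη)

end Groth.Agent.Ega2.H303.Assembly
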