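import Mathlib.AlgebraicGeometry.Fiber
import Mathlib.AlgebraicGeometry.Morphisms.Finite
import Mathlib.AlgebraicGeometry.Morphisms.Flat
import Groth.Agent.Fdesc.LocGen

/-!
# Functions on the fibres

`L g x` is the ring of functions on the fibre of `g : X₁ ⟶ X` at `x`, an algebra over the residue field; `toL g x hx` is the
restriction of functions to the fibre.
-/

set_option autoImplicit false
set_option linter.dupNamespace false
universe u

open CategoryTheory CategoryTheory.Limits AlgebraicGeometry Opposite TopologicalSpace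

namespace Groth.Agent.Ega2.H303.FibAlg

open Groth.Agent.Fdesc.LocGen

variable {X₁ X : Scheme.{u}} (g : X₁ ⟶ X)

/-- The map from the residue field to the functions on the fibre. -/
noncomputable def κL (x : X) : X.residueField x ⟶ Γ(g.fiber x, ⊤) :=
  (Scheme.ΓSpecIso (X.residueField x)).inv ≫ (g.fiberToSpecResidueField x).appTop

theorem top_le (x : X) {U : X.Opens} (hx : x ∈ U) : ⊤ ≤ g.fiberι x ⁻¹ᵁ (g ⁻¹ᵁ U) := by
  intro y _
  change g (g.fiberι x y) ∈ U
  have h1 : g.fiberι x y ∈ Set.range (g.fiberι x) := ⟨y, rfl⟩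
  rw [g.range_fiberι] at h1
  have h2 : g (g.fiberι x y) = x := h1
  rwa [h2]

/-- Restriction to the fibre. -/
noncomputable def toL (x : X) {U : X.Opens} (hx : x ∈ U) : Γ(X₁, g ⁻¹ᵁ U) ⟶ Γ(g.fiber x, ⊤) :=
  (g.fiberι x).appLE (g ⁻¹ᵁ U) ⊤ (top_le g x hx)

theorem toL_res (x : X) {U V : X.Opens} (h : V ≤ U) (hx : x ∈ V) (b : Γ(X₁, g ⁻¹ᵁ U)) :
    toL g x hx (ores (g.preimage_mono h) b) = toL g x (h hx) b := by
  have h1 : X₁.presheaf.map (homOfLE (g.preimage_mono h)).op ≫ toL g x hx = toL g x (h hx) :=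
    Scheme.Hom.map_appLE _ _ _
  exact congr($(h1).hom b)

theorem top_le' (x : X) {U : X.Opens} (hx : x ∈ U) : ⊤ ≤ X.fromSpecResidueField x ⁻¹ᵁ U := by
  intro y _
  change X.fromSpecResidueField x y ∈ U
  rwa [Scheme.fromSpecResidueField_apply]

theorem comp_appLE_top {X Y Z : Scheme.{u}} (f : X ⟶ Y) (g : Y ⟶ Z) (h : X ⟶ Z) (hh : f ≫ g = h) (V : Z.Opens)
    (e : ⊤ ≤ g ⁻¹ᵁ V) (e' : ⊤ ≤ h ⁻¹ᵁ V) :
    h.appLE V ⊤ e' = g.appLE V ⊤ e ≫ f.appTop := by
  subst hh
  refine (Scheme.Hom.appLE_comp_appLE f g V ⊤ ⊤ e le_rfl).symm.trans ?_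
  congr 1
  exact Scheme.Hom.appLE_eq_app f

theorem fromSpecResidueField_appLE (x : X) {U : X.Opens} (hx : x ∈ U) :
    (X.fromSpecResidueField x).appLE U ⊤ (top_le' x hx) =
      X.evaluation U x hx ≫ (Scheme.ΓSpecIso (X.residueField x)).inv := by
  have h0 : (X.fromSpecStalk x) ⁻¹ᵁ U = ⊤ := by
    have h1 : IsLocalRing.closedPoint (X.presheaf.stalk x) ∈ (X.fromSpecStalk x) ⁻¹ᵁ U := by
      change X.fromSpecStalk x _ ∈ U
      rw [Scheme.fromSpecStalk_closedPoint]
      exact hx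
    rw [eq_top_iff]
    intro y _
    exact (IsLocalRing.specializes_closedPoint y).mem_open (TopologicalSpace.Opens.isOpen _) h1
  rw [comp_appLE_top (Spec.map (X.residue x)) (X.fromSpecStalk x) (X.fromSpecResidueField x) rfl U h0.ge
    (top_le' x hx), Scheme.Hom.appLE, Scheme.fromSpecStalk_app hx, ← Scheme.germ_residue]
  simp only [Category.assoc]
  congr 1
  refine Eq.trans ?_ (Scheme.ΓSpecIso_inv_naturality (X.residue x)).symm
  congr 1

theorem app_toL' (x : X) {U : X.Opens} (hx : x ∈ U) :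
    g.app U ≫ toL g x hx = X.evaluation U x hx ≫ κL g x := by
  have h1 : g.app U ≫ toL g x hx = (g.fiberι x ≫ g).appLE U ⊤ (top_le g x hx) := by
    rw [toL, Scheme.Hom.comp_appLE]
  rw [h1, comp_appLE_top (g.fiberToSpecResidueField x) (X.fromSpecResidueField x) (g.fiberι x ≫ g) (g.fiber_fac x).symm U
    (top_le' x hx) (top_le g x hx), fromSpecResidueField_appLE, κL, Category.assoc]

theorem toL_app (x : X) {U : X.Opens} (hx : x ∈ U) (a : Γ(X, U)) :
    toL g x hx (g.app U a) = κL g x (X.evaluation U x hx a) := congr($(app_toL' g x hx).hom a)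

theorem finite_κL [IsFinite g] (x : X) : (κL g x).hom.Finite := by
  have h1 : IsFinite (g.fiberToSpecResidueField x) :=
    MorphismProperty.pullback_snd (P := @IsFinite) _ _ inferInstance
  have h2 := IsFinite.finite_app (g.fiberToSpecResidueField x) ⊤ (isAffineOpen_top _)
  have h3 : (Scheme.ΓSpecIso (X.residueField x)).inv.hom.Finite :=
    RingHom.Finite.of_surjective _ (ConcreteCategory.bijective_of_isIso
      (Scheme.ΓSpecIso (X.residueField x)).inv).2
  exact h2.comp h3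

theorem nontrivial_L [Surjective g] (x : X) : Nontrivial Γ(g.fiber x, ⊤) := by
  obtain ⟨y, hy⟩ := g.surjective x
  have h1 : y ∈ Set.range (g.fiberι x) := by
    rw [g.range_fiberι]
    exact hy
  obtain ⟨z, -⟩ := h1
  have : Nonempty (⊤ : (g.fiber x).Opens) := ⟨⟨z, trivial⟩⟩
  exact Scheme.component_nontrivial (g.fiber x) ⊤

/-- The fibre is the tensor product. -/
theorem isPushout_toL [IsAffineHom g] (x : X) {U : X.Opens} (hU : IsAffineOpen U) (hx : x ∈ U) :
    IsPushout (g.app U) (X.evaluation U x hx) (toL g x hx) (κL g x) := by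
  have hc : IsPullback (g.fiberι x) (g.fiberToSpecResidueField x) g (X.fromSpecResidueField x) :=
    IsPullback.of_hasPullback _ _
  have hUY : (⊤ : (g.fiber x).Opens) = g.fiberι x ⁻¹ᵁ (g ⁻¹ᵁ U) ⊓ g.fiberToSpecResidueField x ⁻¹ᵁ ⊤ := by
    rw [eq_comm, eq_top_iff]
    exact le_inf (top_le g x hx) le_top
  have h1 := isIso_pushoutSection_of_isAffineOpen hc (US := U) (UT := ⊤) (UX := g ⁻¹ᵁ U) (top_le' x hx) le_rfl hUY
    hU (isAffineOpen_top _) (hU.preimage g)
  have h2 := ((isIso_pushoutSection_iff ..).1 h1)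
  have h3 : (X.fromSpecResidueField x).appLE U ⊤ (top_le' x hx) ≫ (Scheme.ΓSpecIso (X.residueField x)).hom =
      X.evaluation U x hx := by
    rw [fromSpecResidueField_appLE, Category.assoc, Iso.inv_hom_id, Category.comp_id]
  refine IsPushout.of_iso h2 (Iso.refl _) (Iso.refl _) (Scheme.ΓSpecIso (X.residueField x)) (Iso.refl _) ?_ ?_ ?_ ?_
  · rw [Iso.refl_hom, Iso.refl_hom, Category.comp_id, Category.id_comp, Scheme.Hom.appLE_eq_app]
  · rw [Iso.refl_hom, Category.id_comp]
    exact h3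
  · rw [Iso.refl_hom, Iso.refl_hom, Category.comp_id, Category.id_comp]
    rfl
  · rw [Iso.refl_hom, Category.comp_id, κL, Iso.hom_inv_id_assoc]
    exact Scheme.Hom.appLE_eq_app _

end Groth.Agent.Ega2.H303.FibAlg
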