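import Groth.Agent.Ega2.H303.SubNorm
import Mathlib.RingTheory.IntegralClosure.IntegrallyClosed

/-!
# Points where a system of subrings consists of functions
-/

set_option autoImplicit false
set_option linter.dupNamespace false
universe u

open CategoryTheory CategoryTheory.Limits AlgebraicGeometry Opposite TopologicalSpace

namespace Groth.Agent.Ega2.H303.LocSurj

open AlgebraicGeometry.Scheme.AffineZariskiSite AlgebraicGeometry.Scheme
open Groth.Agent.Ega2.H303.SubModel Groth.Agent.Ega2.H303.SubNorm Groth.Agent.Fdesc.LocGen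

variable {X : Scheme.{u}}

/-- `c` is locally at `x` given by a function. -/
def IsFun {U : X.Opens} (c : K X U) (x : X) : Prop :=
  ∃ (V : X.Opens) (hV : V ≤ U) (a : Γ(X, V)), x ∈ V ∧ resK hV c = evK V a

/-- If the elements of `C U` are functions locally at `x` then `ev` is surjective near `x`. -/
theorem exists_surjective (S : Sys X) (U : X.AffineZariskiSite) (x : X) (hx : x ∈ U.toOpens)
    (hfin : (S.ev U).Finite) (H : ∀ c ∈ S.C U, IsFun c x) :
    ∃ t : Γ(X, U.toOpens), x ∈ X.basicOpen t ∧ Function.Surjective (S.ev (U.basicOpen t)) := by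
  classical
  let _ : Algebra Γ(X, U.toOpens) (S.C U) := (S.ev U).toAlgebra
  have hf : Module.Finite Γ(X, U.toOpens) (S.C U) := hfin
  obtain ⟨r, e, he⟩ := Module.Finite.exists_fin (R := Γ(X, U.toOpens)) (M := S.C U)
  choose V hV a hxV ha using fun i => H (e i).1 (e i).2
  let W : X.Opens := ⟨⋂ i, (V i : Set X), isOpen_iInter_of_finite fun i => (V i).isOpen⟩
  have hxW : x ∈ W := Set.mem_iInter.2 hxV
  have hW : ∀ i, W ≤ V i := fun i y hy => Set.mem_iInter.1 hy i
  obtain ⟨t, ht, hxt⟩ := U.2.exists_basicOpen_le ⟨x, hxW⟩ hx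
  have key : ∀ c : S.C U, ∃ b : Γ(X, X.basicOpen t), resK (X.basicOpen_le t) c.1 = evK _ b := by
    intro c
    have hc : c ∈ Submodule.span Γ(X, U.toOpens) (Set.range e) := he ▸ Submodule.mem_top
    induction hc using Submodule.span_induction with
    | mem c h =>
      obtain ⟨i, rfl⟩ := h
      have hle : X.basicOpen t ≤ V i := ht.trans (hW i)
      exact ⟨ores hle (a i), by rw [← resK_resK (hV i) hle, ha i]; exact resK_evK hle _⟩
    | zero => exact ⟨0, by rw [map_zero]; exact map_zero _⟩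
    | add c d _ _ h1 h2 =>
      obtain ⟨b, hb⟩ := h1
      obtain ⟨b', hb'⟩ := h2
      exact ⟨b + b', by rw [map_add, ← hb, ← hb']; exact map_add _ _ _⟩
    | smul s c _ h =>
      obtain ⟨b, hb⟩ := h
      refine ⟨ores (X.basicOpen_le t) s * b, ?_⟩
      rw [map_mul, ← hb, Algebra.smul_def]
      exact (map_mul _ _ _).trans (congrArg (· * _) (resK_evK _ _))
  refine ⟨t, hxt, ?_⟩
  intro c1
  obtain ⟨c, hcc⟩ : ∃ c : K X (X.basicOpen t), c = c1.1 := ⟨_, rfl⟩
  have hc : c ∈ S.C (U.basicOpen t) := hcc ▸ c1.2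
  obtain ⟨k, c', hc', h⟩ := S.frac U t c hc
  obtain ⟨b, hb⟩ := key ⟨c', hc'⟩
  have hu : IsUnit (ores (X.basicOpen_le t) t) := RingedSpace.isUnit_res_basicOpen _ t
  obtain ⟨v, hv⟩ := hu.exists_left_inv
  refine ⟨v ^ k * b, Subtype.ext ?_⟩
  rw [← hcc]
  change evK (X.basicOpen t) (v ^ k * b) = c
  have h' : evK (X.basicOpen t) b = evK (X.basicOpen t) (ores (X.basicOpen_le t) t) ^ k * c := by
    rw [← hb]
    refine h.trans ?_
    rw [resK_evK]
    rfl
  have hv' : evK (X.basicOpen t) v * evK (X.basicOpen t) (ores (X.basicOpen_le t) t) = 1 := by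
    rw [← map_mul, hv, map_one]
  rw [map_mul, map_pow, h', ← mul_assoc, ← mul_pow, hv', one_pow, one_mul]

section Normal

theorem eq_of_specializes {η y : X} (hη : η ∈ genericPoints X) (h : y ⤳ η) : y = η := by
  have h1 : closure {η} ⊆ closure {y} := h.closure_subset
  have h2 : IsIrreducible (closure ({y} : Set X)) := isIrreducible_singleton.closure
  have h3 : closure {y} ⊆ closure {η} := hη.2 h2 h1
  have h4 : η ⤳ y := specializes_iff_mem_closure.2 (h3 (subset_closure rfl))
  exact (h.antisymm h4).eq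

theorem exists_maxPt (x : X) : ∃ η ∈ genericPoints X, η ⤳ x := by
  let Z : irreducibleComponents X := ⟨irreducibleComponent x, irreducibleComponent_mem_irreducibleComponents x⟩
  have h1 := genericPoints.isGenericPoint_ofComponent Z
  refine ⟨(genericPoints.ofComponent Z).1, (genericPoints.ofComponent Z).2, ?_⟩
  rw [specializes_iff_mem_closure, h1]
  exact mem_irreducibleComponent

theorem specializes_of_pt_le {U : X.Opens} (hU : IsAffineOpen U) {x y : X} (hx : x ∈ U) (hy : y ∈ U)
    (h : pt y hy ≤ pt x hx) : y ⤳ x := by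
  rw [specializes_iff_forall_open]
  intro O hO hxO
  obtain ⟨f, hf, hxf⟩ := hU.exists_basicOpen_le (V := ⟨O, hO⟩) ⟨x, hxO⟩ hx
  apply hf
  by_contra hy'
  exact (mem_pt x hx f).1 (h ((mem_pt y hy f).2 hy')) hxf

/-- The ideal of a maximal point is minimal. -/
theorem eq_pt_of_le {U : X.Opens} (hU : IsAffineOpen U) {η : X} (hη : η ∈ genericPoints X) (hηU : η ∈ U)
    (P : Ideal Γ(X, U)) [P.IsPrime] (h : P ≤ pt η hηU) : P = pt η hηU := by
  obtain ⟨y, hy, rfl⟩ := exists_pt_eq hU P
  obtain rfl := eq_of_specializes hη (specializes_of_pt_le hU hηU hy h)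
  rfl

/-- If the stalk at `x` is a domain, the functions vanishing near `x` are those vanishing at a maximal point
specializing to `x`. -/
theorem ker_germ_eq {U : X.Opens} (hU : IsAffineOpen U) {x : X} (hx : x ∈ U) [IsDomain (X.presheaf.stalk x)] {η : X}
    (hη : η ∈ genericPoints X) (hηx : η ⤳ x) :
    RingHom.ker (X.presheaf.germ U x hx).hom = pt η (hηx.mem_open U.2 hx) := by
  have : (RingHom.ker (X.presheaf.germ U x hx).hom).IsPrime := RingHom.ker_isPrime _
  apply eq_pt_of_le hU hη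
  intro a ha
  have ha' : X.presheaf.germ U x hx a = 0 := ha
  have h1 : X.presheaf.germ U x hx ≫ X.presheaf.stalkSpecializes hηx =
    X.presheaf.germ U η (hηx.mem_open U.2 hx) := TopCat.Presheaf.germ_stalkSpecializes ..
  change X.evaluation U η _ a = 0
  rw [← Scheme.germ_residue, ← h1, CommRingCat.comp_apply, CommRingCat.comp_apply, ha', map_zero, map_zero]

/-- The map from the stalk to the residue field of a generization. -/
noncomputable def φ {x η : X} (h : η ⤳ x) : X.presheaf.stalk x →+* X.residueField η :=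
  (X.presheaf.stalkSpecializes h ≫ X.residue η).hom

theorem φ_germ {x η : X} (h : η ⤳ x) {U : X.Opens} (hx : x ∈ U) (a : Γ(X, U)) :
    φ h (X.presheaf.germ U x hx a) = X.evaluation U η (h.mem_open U.2 hx) a := by
  have : X.presheaf.germ U x hx ≫ X.presheaf.stalkSpecializes h =
    X.presheaf.germ U η (h.mem_open U.2 hx) := TopCat.Presheaf.germ_stalkSpecializes ..
  rw [← Scheme.germ_residue, ← this]
  rfl

theorem exists_affine_germ {x : X} (s : X.presheaf.stalk x) : ∃ (U : X.Opens) (hx : x ∈ U) (a : Γ(X, U)),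
    IsAffineOpen U ∧ X.presheaf.germ U x hx a = s := by
  obtain ⟨V, hxV, a, rfl⟩ := X.presheaf.exists_germ_eq s
  obtain ⟨U, hU, hxU, hUV⟩ := exists_isAffineOpen_mem_and_subset (x := x) (U := V) hxV
  exact ⟨U, hxU, ores hUV a, hU, X.presheaf.germ_res_apply (homOfLE hUV) _ hxU a⟩

theorem φ_injective {x η : X} [IsDomain (X.presheaf.stalk x)] (hη : η ∈ genericPoints X) (h : η ⤳ x) :
    Function.Injective (φ h) := by
  rw [injective_iff_map_eq_zero]
  intro s hs
  obtain ⟨U, hx, a, hU, rfl⟩ := exists_affine_germ s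
  rw [φ_germ] at hs
  have h1 : a ∈ pt η (h.mem_open U.2 hx) := hs
  rw [← ker_germ_eq hU hx hη h] at h1
  exact h1

/-- Every element of the residue field is a quotient of values of sections over an affine open. -/
theorem exists_evaluation_div {U : X.Opens} (hU : IsAffineOpen U) {ξ : X} (hξ : ξ ∈ U) (f : X.residueField ξ) :
    ∃ a b : Γ(X, U), X.evaluation U ξ hξ b ≠ 0 ∧
      f = X.evaluation U ξ hξ a / X.evaluation U ξ hξ b := by
  have hloc := hU.isLocalization_stalk ⟨ξ, hξ⟩
  let : Algebra Γ(X, U) (X.presheaf.stalk ξ) := (X.presheaf.germ U ξ hξ).hom.toAlgebra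
  obtain ⟨φ, rfl⟩ := X.residue_surjective ξ f
  obtain ⟨⟨a, b⟩, hab⟩ := IsLocalization.surj (hU.primeIdealOf ⟨ξ, hξ⟩).asIdeal.primeCompl φ
  have hb : IsUnit (X.presheaf.germ U ξ hξ b.1) :=
    IsLocalization.map_units (X.presheaf.stalk ξ) b
  have hb' : X.evaluation U ξ hξ b.1 ≠ 0 := (hb.map (X.residue ξ).hom).ne_zero
  refine ⟨a, b.1, hb', ?_⟩
  rw [eq_div_iff hb']
  have := congrArg (X.residue ξ).hom hab
  rw [map_mul] at this
  exact this

/-- An integral element is a function locally at a normal point. -/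
theorem isFun_of_isIntegral (hfin : (genericPoints X).Finite) {U : X.Opens} (hU : IsAffineOpen U) {x : X} (hx : x ∈ U)
    [IsDomain (X.presheaf.stalk x)] [IsIntegrallyClosed (X.presheaf.stalk x)] (c : K X U)
    (hc : (evK U).IsIntegralElem c) : IsFun c x := by
  obtain ⟨η, hη, hηx⟩ := exists_maxPt x
  have hηU : η ∈ U := hηx.mem_open U.2 hx
  let A := X.presheaf.stalk x
  let F := X.residueField η
  let _ : Algebra A F := (φ hηx).toAlgebra
  have : FaithfulSMul A F := (faithfulSMul_iff_algebraMap_injective A F).2 (φ_injective hη hηx)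
  have : IsFractionRing A F := IsFractionRing.of_field A F fun z => by
    obtain ⟨a, b, -, h⟩ := exists_evaluation_div hU hηU z
    exact ⟨X.presheaf.germ U x hx a, X.presheaf.germ U x hx b, by
      rw [h]
      change _ = φ hηx _ / φ hηx _
      rw [φ_germ, φ_germ]⟩
  let η' : MaxPt X U := ⟨η, hη, hηU⟩
  have h1 : IsIntegral A (c η') := by
    obtain ⟨p, hp, hpc⟩ := hc
    refine ⟨p.map (X.presheaf.germ U x hx).hom, hp.map _, ?_⟩
    rw [Polynomial.eval₂_map]
    have h2 : (algebraMap A F).comp (X.presheaf.germ U x hx).hom =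
        (Pi.evalRingHom (fun η : MaxPt X U => (X.residueField η.1 : Type u)) η').comp (evK U) := by
      ext a
      exact φ_germ hηx hx a
    have h3 := congrArg (Pi.evalRingHom (fun η : MaxPt X U => (X.residueField η.1 : Type u)) η') hpc
    rw [map_zero, Polynomial.hom_eval₂, ← h2] at h3
    exact h3
  obtain ⟨y, hy⟩ := IsIntegrallyClosed.isIntegral_iff.1 h1
  obtain ⟨V, hxV, a, rfl⟩ := X.presheaf.exists_germ_eq y
  have hcl : IsClosed (⋃ ξ ∈ genericPoints X \ {η}, closure ({ξ} : Set X)) :=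
    Set.Finite.isClosed_biUnion (hfin.subset Set.sdiff_subset) fun _ _ => isClosed_closure
  let V' : X.Opens := (V ⊓ U) ⊓ ⟨_, hcl.isOpen_compl⟩
  have hxV' : x ∈ V' := by
    refine ⟨⟨hxV, hx⟩, ?_⟩
    intro hcon
    obtain ⟨ξ, ⟨hξ, hne⟩, hξx⟩ := Set.mem_iUnion₂.1 hcon
    have h2 : ξ ⤳ x := specializes_iff_mem_closure.2 hξx
    have h3 := ker_germ_eq hU hx hη hηx
    rw [ker_germ_eq hU hx hξ h2] at h3
    exact hne (eq_of_specializes hη (specializes_of_pt_le hU hηU (h2.mem_open U.2 hx) h3.le))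
  have hV'V : V' ≤ V := inf_le_left.trans inf_le_left
  have hV'U : V' ≤ U := inf_le_left.trans inf_le_right
  refine ⟨V', hV'U, ores hV'V a, hxV', ?_⟩
  funext ξ
  obtain ⟨ξ, hξ, hξV⟩ := ξ
  obtain rfl : ξ = η := by
    by_contra hne
    exact hξV.2 (Set.mem_iUnion₂.2 ⟨ξ, ⟨hξ, hne⟩, subset_closure rfl⟩)
  have h4 : φ hηx (X.presheaf.germ V x hxV a) = c η' := hy
  rw [φ_germ] at h4
  change c η' = X.evaluation V' ξ hξV (ores hV'V a)
  rw [← h4]
  exact (evaluation_res hV'V a ξ hξV).symm

/-- Near a normal point the subrings consist of functions. -/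
theorem exists_surjective_of_normal (S : Sys X) (hS : ∀ U, (S.ev U).Finite) (hfin : (genericPoints X).Finite) {x : X}
    [IsDomain (X.presheaf.stalk x)] [IsIntegrallyClosed (X.presheaf.stalk x)] {T : X.Opens} (hx : x ∈ T) :
    ∃ U : X.AffineZariskiSite, x ∈ U.toOpens ∧ U.toOpens ≤ T ∧ Function.Surjective (S.ev U) := by
  obtain ⟨U, hU, hxU, hUT⟩ := exists_isAffineOpen_mem_and_subset (x := x) (U := T) hx
  let U' : X.AffineZariskiSite := ⟨U, hU⟩
  obtain ⟨t, hxt, ht⟩ := exists_surjective S U' x hxU (hS U') fun c hc => by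
    apply isFun_of_isIntegral hfin hU hxU
    have h1 := (hS U').to_isIntegral ⟨c, hc⟩
    obtain ⟨p, hp, hpc⟩ := h1
    refine ⟨p, hp, ?_⟩
    have h2 := congrArg (S.C U').subtype hpc
    rw [map_zero, Polynomial.hom_eval₂] at h2
    exact h2
  exact ⟨U'.basicOpen t, hxt, (X.basicOpen_le t).trans hUT, ht⟩

end Normal

end Groth.Agent.Ega2.H303.LocSurj
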