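import Groth.Agent.Ega2.H303.SubModel

/-!
# The relative spectrum of a system of subrings: isomorphism loci and density
-/

set_option autoImplicit false
set_option linter.dupNamespace false
universe u

open CategoryTheory CategoryTheory.Limits AlgebraicGeometry Opposite TopologicalSpace

namespace Groth.Agent.Ega2.H303.SubIso

open AlgebraicGeometry.Scheme.AffineZariskiSite AlgebraicGeometry.Scheme
open Groth.Agent.Ega2.H303.SubModel

/-- Being an isomorphism over an open can be checked locally. -/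
theorem isIso_restrict_of_local {Z X : Scheme.{u}} (h : Z ⟶ X) (W : X.Opens)
    (H : ∀ x ∈ W, ∃ U : X.Opens, x ∈ U ∧ U ≤ W ∧ IsIso (h ∣_ U)) : IsIso (h ∣_ W) := by
  have h1 : MorphismProperty.isomorphisms Scheme.{u} (h ∣_ W) := by
    apply IsZariskiLocalAtTarget.of_forall_exists_morphismRestrict
    rintro ⟨x, hx⟩
    obtain ⟨U, hxU, hUW, hU⟩ := H x hx
    refine ⟨W.ι ⁻¹ᵁ U, hxU, ?_⟩
    have e : W.ι ''ᵁ (W.ι ⁻¹ᵁ U) = U := by
      rw [Scheme.Hom.image_preimage_eq_opensRange_inf, Scheme.Opens.opensRange_ι]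
      exact inf_eq_right.2 hUW
    rw [(MorphismProperty.isomorphisms Scheme.{u}).arrow_mk_iso_iff (morphismRestrictRestrict h W (W.ι ⁻¹ᵁ U)),
      (MorphismProperty.isomorphisms Scheme.{u}).arrow_mk_iso_iff (morphismRestrictEq h e)]
    exact hU
  exact h1

variable {X : Scheme.{u}} (S : Sys X)

/-- `hom` is an isomorphism over `U` if `C U` consists of the values of functions. -/
theorem isIso_restrict_affine [IsReduced X] (U : X.AffineZariskiSite) (h : Function.Surjective (S.ev U)) :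
    IsIso (S.hom ∣_ U.toOpens) := by
  rw [isIso_morphismRestrict_iff_isIso_app _ U.2, ConcreteCategory.isIso_iff_bijective]
  have h1 : Function.Bijective (S.secEquiv U ∘ (S.hom.app U.toOpens)) := by
    have : (S.secEquiv U ∘ (S.hom.app U.toOpens)) = S.ev U := funext fun a => S.secEquiv_app U a
    rw [this]
    exact ⟨S.ev_injective U, h⟩
  exact (Function.Bijective.of_comp_iff' (S.secEquiv U).bijective _).1 h1

theorem isIso_restrict [IsReduced X] (W : X.Opens)
    (H : ∀ x ∈ W, ∃ U : X.AffineZariskiSite, x ∈ U.toOpens ∧ U.toOpens ≤ W ∧ Function.Surjective (S.ev U)) :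
    IsIso (S.hom ∣_ W) :=
  isIso_restrict_of_local _ _ fun x hx => by
    obtain ⟨U, hxU, hUW, hU⟩ := H x hx
    exact ⟨U.toOpens, hxU, hUW, isIso_restrict_affine S U hU⟩

/-- An open containing the maximal points is dense. -/
theorem dense_of_maxPt {V : X.Opens} (hV : ∀ η ∈ genericPoints X, η ∈ V) : Dense (V : Set X) := by
  intro x
  have h1 : closure (genericPoints X) ⊆ closure (V : Set X) := closure_mono hV
  rw [genericPoints.closure] at h1
  exact h1 trivial

/-- There is a point over each maximal point, at which the functions with nonvanishing component do not vanish. -/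
theorem exists_point (U : X.AffineZariskiSite) (η : MaxPt X U.toOpens) (b : Γ(S.obj, S.hom ⁻¹ᵁ U.toOpens))
    (hb : (S.secEquiv U b).1 η ≠ 0) : ∃ z : S.obj, S.hom z = η.1 ∧ z ∈ S.obj.basicOpen b := by
  have hU : IsAffineOpen U.toOpens := U.2
  have hUz : IsAffineOpen (S.hom ⁻¹ᵁ U.toOpens) := hU.preimage _
  obtain ⟨φ, hφb⟩ : ∃ φ : Γ(S.obj, S.hom ⁻¹ᵁ U.toOpens) ⟶ X.residueField η.1, ∀ c, φ c = (S.secEquiv U c).1 η :=
    ⟨CommRingCat.ofHom
      (((Pi.evalRingHom (fun η : MaxPt X U.toOpens => (X.residueField η.1 : Type u)) η).comp (S.C U).subtype).comp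
      (S.secEquiv U : Γ(S.obj, S.hom ⁻¹ᵁ U.toOpens) →+* S.C U)), fun _ => rfl⟩
  have hφ : S.hom.appLE U.toOpens (S.hom ⁻¹ᵁ U.toOpens) le_rfl ≫ φ =
      X.evaluation U.toOpens η.1 η.2.2 := by
    ext a
    rw [Scheme.Hom.appLE_eq_app, CommRingCat.comp_apply, hφb, S.secEquiv_app]
    rfl
  let t : Spec (X.residueField η.1) ⟶ S.obj := Spec.map φ ≫ hUz.fromSpec
  have ht : t ≫ S.hom = X.fromSpecResidueField η.1 := by
    rw [Category.assoc, ← IsAffineOpen.SpecMap_appLE_fromSpec (f := S.hom) hU hUz le_rfl, ← Spec.map_comp_assoc, hφ,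
      ← Scheme.germ_residue, Spec.map_comp_assoc]
    exact congrArg (fun t => Spec.map (X.residue η.1) ≫ t) (hU.fromSpecStalk_eq_fromSpecStalk η.2.2)
  let p : Spec (X.residueField η.1) := IsLocalRing.closedPoint (X.residueField η.1)
  refine ⟨t p, ?_, ?_⟩
  · rw [← Scheme.Hom.comp_apply, ht]
    exact Scheme.fromSpecResidueField_apply _ _
  · change p ∈ t ⁻¹ᵁ (S.obj.basicOpen b)
    rw [Scheme.Hom.comp_preimage, IsAffineOpen.fromSpec_preimage_basicOpen]
    change ¬ (φ b ∈ p.asIdeal)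
    have hp : p.asIdeal = ⊥ := IsLocalRing.maximalIdeal_eq_bot
    rw [hp, Ideal.mem_bot, hφb]
    exact hb

/-- The preimage of an open containing the maximal points is dense. -/
theorem dense_preimage {V : X.Opens} (hV : ∀ η ∈ genericPoints X, η ∈ V) :
    Dense ((S.hom ⁻¹ᵁ V : S.obj.Opens) : Set S.obj) := by
  rw [dense_iff_inter_open]
  rintro O hO ⟨z, hz⟩
  -- an affine chart at `z`
  obtain ⟨U₀, hU₀, hzU₀, -⟩ := exists_isAffineOpen_mem_and_subset (x := S.hom z) (U := (⊤ : X.Opens)) trivial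
  let U : X.AffineZariskiSite := ⟨U₀, hU₀⟩
  have hUz : IsAffineOpen (S.hom ⁻¹ᵁ U.toOpens) := hU₀.preimage _
  obtain ⟨b, hbO, hzb⟩ := hUz.exists_basicOpen_le (V := ⟨O, hO⟩) ⟨z, hz⟩ hzU₀
  -- `b ≠ 0`
  have hb0 : S.secEquiv U b ≠ 0 := by
    intro h
    have h0 : b = 0 := (S.secEquiv U).injective (h.trans (map_zero _).symm)
    rw [h0, Scheme.basicOpen_zero] at hzb
    exact hzb.elim
  obtain ⟨η, hη⟩ : ∃ η : MaxPt X U.toOpens, (S.secEquiv U b).1 η ≠ 0 := by
    by_contra hne
    push Not at hne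
    exact hb0 (Subtype.ext (funext hne))
  obtain ⟨z', hz', hz'b⟩ := exists_point S U η b hη
  exact ⟨z', hbO hz'b, by
    change S.hom z' ∈ V
    rw [hz']
    exact hV _ η.2.1⟩

end Groth.Agent.Ega2.H303.SubIso
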