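import Mathlib.AlgebraicGeometry.ResidueField
import Mathlib.AlgebraicGeometry.Noetherian
import Groth.Agent.CohqB.RelSpec
import Groth.Agent.Ega2.H280.RelSpecAlg

/-!
# Finite birational modifications from subrings of the product of the fields at the maximal points

`K X U` is the product of the residue fields of `X` at the maximal points of `X` lying in `U`.  A `Sys X` is a family of
subrings `C U` of `K X U`, `U` affine, containing the values of the functions on `U`, and compatible with localization.
`Sys.obj` is the relative spectrum.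
-/

set_option autoImplicit false
set_option linter.dupNamespace false
universe u

open CategoryTheory CategoryTheory.Limits AlgebraicGeometry Opposite TopologicalSpace

namespace Groth.Agent.Ega2.H303.SubModel

open AlgebraicGeometry.Scheme.AffineZariskiSite AlgebraicGeometry.Scheme

variable (X : Scheme.{u})

/-- The maximal points of `X` in `U`. -/
abbrev MaxPt (U : X.Opens) : Type u := {η : X // η ∈ genericPoints X ∧ η ∈ U}

/-- The product of the residue fields at the maximal points. -/
abbrev K (U : X.Opens) : Type u := ∀ η : MaxPt X U, X.residueField η.1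

variable {X}

/-- inclusion of maximal points -/
def MaxPt.incl {U V : X.Opens} (h : V ≤ U) (η : MaxPt X V) : MaxPt X U := ⟨η.1, η.2.1, h η.2.2⟩

/-- restriction -/
noncomputable def resK {U V : X.Opens} (h : V ≤ U) : K X U →+* K X V :=
  RingHom.pi fun η => Pi.evalRingHom (fun η : MaxPt X U => (X.residueField η.1 : Type u)) (η.incl h)

@[simp] theorem resK_apply {U V : X.Opens} (h : V ≤ U) (c : K X U) (η : MaxPt X V) :
    resK h c η = c (η.incl h) := rfl

theorem resK_resK {U V W : X.Opens} (h : V ≤ U) (h' : W ≤ V) (c : K X U) :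
    resK h' (resK h c) = resK (h'.trans h) c := rfl

/-- The values of a function. -/
noncomputable def evK (U : X.Opens) : Γ(X, U) →+* K X U :=
  RingHom.pi fun η => (X.evaluation U η.1 η.2.2).hom

theorem evK_apply (U : X.Opens) (a : Γ(X, U)) (η : MaxPt X U) :
    evK U a η = X.evaluation U η.1 η.2.2 a := rfl

theorem evaluation_res {U V : X.Opens} (h : V ≤ U) (a : Γ(X, U)) (x : X) (hx : x ∈ V) :
    X.evaluation V x hx (X.presheaf.map (homOfLE h).op a) = X.evaluation U x (h hx) a := by
  rw [← Scheme.germ_residue, ← Scheme.germ_residue, CommRingCat.comp_apply, CommRingCat.comp_apply]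
  congr 1
  exact X.presheaf.germ_res_apply (homOfLE h) _ hx a

theorem resK_evK {U V : X.Opens} (h : V ≤ U) (a : Γ(X, U)) :
    resK h (evK U a) = evK V (X.presheaf.map (homOfLE h).op a) := by
  funext η
  rw [resK_apply, evK_apply, evK_apply, evaluation_res]
  rfl

theorem nonempty_maxPt {U : X.Opens} (hU : (U : Set X).Nonempty) : Nonempty (MaxPt X U) := by
  obtain ⟨x, hxU⟩ := hU
  have h1 : x ∈ closure (genericPoints X) := by
    rw [genericPoints.closure]; trivial
  obtain ⟨η, hη, hη'⟩ := mem_closure_iff.1 h1 U U.isOpen hxU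
  exact ⟨⟨η, hη', hη⟩⟩

theorem evK_injective [IsReduced X] (U : X.Opens) : Function.Injective (evK (X := X) U) := by
  rw [injective_iff_map_eq_zero]
  intro a ha
  apply eq_zero_of_basicOpen_eq_bot
  by_contra hne
  have h1 : ((X.basicOpen a : X.Opens) : Set X).Nonempty := by
    rw [Set.nonempty_iff_ne_empty]
    intro h
    exact hne (Opens.ext h)
  obtain ⟨η⟩ := nonempty_maxPt h1
  have h2 := (X.evaluation_ne_zero_iff_mem_basicOpen η.1 (X.basicOpen_le a η.2.2) a).2 η.2.2
  exact h2 (congrFun ha (η.incl (X.basicOpen_le a)))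

variable (X) in
/-- A family of subrings of the `K X U`, `U` affine. -/
structure Sys where
  /-- the subrings -/
  C : ∀ U : X.AffineZariskiSite, Subring (K X U.toOpens)
  ev_mem : ∀ (U : X.AffineZariskiSite) (a : Γ(X, U.toOpens)), evK U.toOpens a ∈ C U
  res_mem : ∀ (U : X.AffineZariskiSite) (f : Γ(X, U.toOpens)) (c : K X U.toOpens), c ∈ C U →
    resK (X.basicOpen_le f) c ∈ C (U.basicOpen f)
  frac : ∀ (U : X.AffineZariskiSite) (f : Γ(X, U.toOpens)) (c : K X (X.basicOpen f)), c ∈ C (U.basicOpen f) →
    ∃ (k : ℕ) (c' : K X U.toOpens), c' ∈ C U ∧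
      resK (X.basicOpen_le f) c' = resK (X.basicOpen_le f) (evK U.toOpens f) ^ k * c

namespace Sys

variable (S : Sys X)

theorem res_mem' {U V : X.AffineZariskiSite} (i : V ≤ U) {c : K X U.toOpens} (hc : c ∈ S.C U) :
    resK (toOpens_mono i) c ∈ S.C V := by
  obtain ⟨f, hf⟩ := i
  obtain rfl : U.basicOpen f = V := Subtype.ext hf
  exact S.res_mem U f c hc

/-- restriction -/
noncomputable def res {U V : X.AffineZariskiSite} (i : V ≤ U) : S.C U →+* S.C V :=
  (resK (toOpens_mono i)).restrict (S.C U) (S.C V) fun _ hc => S.res_mem' i hc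

theorem coe_res {U V : X.AffineZariskiSite} (i : V ≤ U) (c : S.C U) :
    (S.res i c : K X V.toOpens) = resK (toOpens_mono i) c := rfl

/-- the structure map -/
noncomputable def ev (U : X.AffineZariskiSite) : Γ(X, U.toOpens) →+* S.C U :=
  (evK U.toOpens).codRestrict (S.C U) (S.ev_mem U)

theorem coe_ev (U : X.AffineZariskiSite) (a : Γ(X, U.toOpens)) : (S.ev U a : K X U.toOpens) = evK _ a := rfl

theorem ev_injective [IsReduced X] (U : X.AffineZariskiSite) : Function.Injective (S.ev U) := by
  intro a b h
  exact evK_injective _ (congrArg Subtype.val h)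

theorem res_ev {U V : X.AffineZariskiSite} (i : V ≤ U) (a : Γ(X, U.toOpens)) :
    S.res i (S.ev U a) = S.ev V (X.presheaf.map (homOfLE (toOpens_mono i)).op a) :=
  Subtype.ext (resK_evK _ a)

/-- The functor on the small affine Zariski site. -/
@[simps]
noncomputable def F : X.AffineZariskiSiteᵒᵖ ⥤ CommRingCat.{u} where
  obj U := CommRingCat.of (S.C U.unop)
  map i := CommRingCat.ofHom (S.res i.unop.le)
  map_id _ := rfl
  map_comp _ _ := rfl

/-- The structure map. -/
@[simps]
noncomputable def α : (toOpensFunctor X).op ⋙ X.presheaf ⟶ S.F where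
  app U := CommRingCat.ofHom (S.ev U.unop)
  naturality U V i := by
    ext a
    exact (S.res_ev i.unop.le a).symm

theorem isLocalization (U : X.AffineZariskiSite) (f : Γ(X, U.toOpens)) :
    letI := (S.res (U.basicOpen_le f)).toAlgebra
    IsLocalization.Away (S.ev U f) (S.C (U.basicOpen f)) := by
  let _ := (S.res (U.basicOpen_le f)).toAlgebra
  have hu : IsUnit (X.presheaf.map (homOfLE (X.basicOpen_le f)).op f) :=
    RingedSpace.isUnit_res_basicOpen _ f
  have hu' : IsUnit (S.res (U.basicOpen_le f) (S.ev U f)) := by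
    rw [res_ev]
    exact hu.map _
  refine (isLocalization_iff _ _).2 ⟨?_, ?_, ?_⟩
  · rintro ⟨_, n, rfl⟩
    change IsUnit (S.res (U.basicOpen_le f) ((S.ev U f) ^ n))
    rw [map_pow]
    exact hu'.pow n
  · rintro ⟨c, hc⟩
    obtain ⟨k, c', hc', h⟩ := S.frac U f c hc
    refine ⟨⟨⟨c', hc'⟩, ⟨_, k, rfl⟩⟩, Subtype.ext ?_⟩
    change c * ((S.res (U.basicOpen_le f) ((S.ev U f) ^ k) : S.C (U.basicOpen f)) : K X _) = resK _ c'
    rw [map_pow, Subring.coe_pow, mul_comm]
    exact h.symm
  · intro x y hxy
    refine ⟨⟨_, 1, rfl⟩, Subtype.ext ?_⟩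
    change ((S.ev U f) ^ 1 : S.C U).1 * x.1 = ((S.ev U f) ^ 1 : S.C U).1 * y.1
    rw [pow_one]
    funext η
    rw [Pi.mul_apply, Pi.mul_apply]
    by_cases hη : η.1 ∈ X.basicOpen f
    · have h1 : resK (X.basicOpen_le f) x.1 = resK (X.basicOpen_le f) y.1 := congrArg Subtype.val hxy
      have h2 := congrFun h1 ⟨η.1, η.2.1, hη⟩
      have h3 : x.1 η = y.1 η := h2
      rw [h3]
    · have h1 : (S.ev U f).1 η = 0 :=
        (X.evaluation_eq_zero_iff_notMem_basicOpen η.1 η.2.2 f).2 hη
      rw [h1, zero_mul, zero_mul]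

theorem coequifibered : S.α.Coequifibered := by
  rw [coequifibered_iff_forall_isLocalizationAway]
  intro U f
  exact S.isLocalization U f

/-- The relative spectrum. -/
noncomputable def obj : Scheme.{u} := CohqB.RelSpec.obj S.coequifibered

/-- The structure morphism. -/
noncomputable def hom : S.obj ⟶ X := CohqB.RelSpec.toBase S.coequifibered

instance : IsAffineHom S.hom := CohqB.RelSpec.isAffineHom_toBase _

theorem isFinite_hom (h : ∀ U, (S.ev U).Finite) : IsFinite S.hom :=
  CohqB.RelSpec.isFinite_toBase _ h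

instance (U : X.AffineZariskiSite) : _root_.IsReduced (S.C U) :=
  isReduced_of_injective (S.C U).subtype Subtype.val_injective

instance : IsReduced S.obj := by
  have h : ∀ i : (CohqB.RelSpec.cover S.coequifibered).I₀,
      IsReduced ((CohqB.RelSpec.cover S.coequifibered).X i) := by
    intro U
    change IsReduced (Spec (CommRingCat.of (S.C U)))
    have : _root_.IsReduced (CommRingCat.of (S.C U)) := inferInstanceAs (_root_.IsReduced (S.C U))
    infer_instance
  exact IsReduced.of_openCover _ (CohqB.RelSpec.cover S.coequifibered)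

/-- Sections over the preimage of an affine open. -/
noncomputable def secEquiv (U : X.AffineZariskiSite) : Γ(S.obj, S.hom ⁻¹ᵁ U.toOpens) ≃+* S.C U :=
  (@asIso _ _ _ _ (H280.RelSpecAlg.secHom S.coequifibered U)
    (H280.RelSpecAlg.isIso_secHom S.coequifibered U)).commRingCatIsoToRingEquiv

theorem secEquiv_app (U : X.AffineZariskiSite) (a : Γ(X, U.toOpens)) :
    S.secEquiv U (S.hom.app U.toOpens a) = S.ev U a :=
  congr($(H280.RelSpecAlg.app_secHom S.coequifibered U).hom a)

theorem secEquiv_res {U V : X.AffineZariskiSite} (i : V ≤ U) (c : Γ(S.obj, S.hom ⁻¹ᵁ U.toOpens)) :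
    S.secEquiv V (S.obj.presheaf.map (homOfLE (S.hom.preimage_mono (toOpens_mono i))).op c) =
      S.res i (S.secEquiv U c) :=
  congr($(H280.RelSpecAlg.secHom_naturality S.coequifibered (homOfLE i)).hom c)

end Sys

end Groth.Agent.Ega2.H303.SubModel
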